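import Cfsg.Agent.H704.Bridge
import Cfsg.Agent.H704.Hooks

/-!
# Bead sets (helper797, S4766)

* `bd l` : the set of the first column hook lengths of a weakly decreasing list (zeros allowed);
* `hp X` : the product of the hook lengths of a bead set;
* `exists_beads`, `exists_part` : partitions and bead sets.
-/

set_option autoImplicit false

namespace Cfsg.Agent.H797.AD

open Finset Cfsg.Agent.H704 Cfsg.Agent.H614

/-- the beads of a list of parts -/
def bd : List ℕ → Finset ℕ
  | [] => ∅
  | a :: l => insert (a + l.length) (bd l)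

/-- the product of the hook lengths of a bead set -/
def hp (X : Finset ℕ) : ℕ := ∏ x ∈ X, ∏ y ∈ (range x).filter (fun y => y ∉ X), (x - y)

/-- the product of the differences -/
def V (X : Finset ℕ) : ℕ := ∏ x ∈ X, ∏ y ∈ (range x).filter (fun y => y ∈ X), (x - y)

theorem hp_mul_V (X : Finset ℕ) : hp X * V X = ∏ x ∈ X, x.factorial := by
  rw [hp, V, ← prod_mul_distrib]
  refine prod_congr rfl fun x _ => ?_
  rw [mul_comm, prod_filter_mul_prod_filter_not, prod_range_sub'']

theorem V_pos (X : Finset ℕ) : 0 < V X := by
  refine prod_pos fun x _ => prod_pos fun y hy => ?_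
  have := mem_range.1 (mem_filter.1 hy).1
  omega

theorem hp_pos (X : Finset ℕ) : 0 < hp X := by
  refine prod_pos fun x _ => prod_pos fun y hy => ?_
  have := mem_range.1 (mem_filter.1 hy).1
  omega

theorem lt_of_mem_bd : ∀ (l : List ℕ) (a : ℕ), (∀ b ∈ l, b ≤ a) → ∀ x ∈ bd l, x < a + l.length := by
  intro l
  induction l with
  | nil => intro a _ x hx; simp [bd] at hx
  | cons b l ih =>
    intro a h x hx
    rw [bd, mem_insert] at hx
    rw [List.length_cons]
    have hb := h b (by simp)
    rcases hx with rfl | hx
    · omega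
    · have := ih a (fun c hc => h c (List.mem_cons_of_mem _ hc)) x hx
      omega

theorem notMem_bd {a : ℕ} {l : List ℕ} (h : Dec (a :: l)) : a + l.length ∉ bd l := fun hx =>
  (lt_of_mem_bd l a (fun _ hb => List.rel_of_pairwise_cons h hb) _ hx).false

theorem card_bd : ∀ {l : List ℕ}, Dec l → (bd l).card = l.length := by
  intro l
  induction l with
  | nil => intro _; rfl
  | cons a l ih =>
    intro h
    rw [bd, card_insert_of_notMem (notMem_bd h), ih h.of_cons, List.length_cons]

theorem sum_bd : ∀ {l : List ℕ}, Dec l → ∑ x ∈ bd l, x = l.sum + ∑ i ∈ range l.length, i := by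
  intro l
  induction l with
  | nil => intro _; rfl
  | cons a l ih =>
    intro h
    rw [bd, sum_insert (notMem_bd h), ih h.of_cons, List.length_cons, sum_range_succ, List.sum_cons]
    omega

theorem fp_bd : ∀ {l : List ℕ}, Dec l → fp l = ∏ x ∈ bd l, x.factorial := by
  intro l
  induction l with
  | nil => intro _; rfl
  | cons a l ih =>
    intro h
    rw [bd, prod_insert (notMem_bd h), fp, ih h.of_cons]

theorem bp_bd : ∀ {l : List ℕ} {a : ℕ}, Dec l → (∀ b ∈ l, b ≤ a) → bp a l = ∏ y ∈ bd l, (a + l.length - y) := by
  intro l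
  induction l with
  | nil => intro a _ _; rfl
  | cons b l ih =>
    intro a h hle
    have hb := hle b (by simp)
    rw [bd, prod_insert (notMem_bd h), bp, List.length_cons,
      ih (a := a + 1) h.of_cons (fun c hc => (hle c (List.mem_cons_of_mem _ hc)).trans (Nat.le_succ a))]
    congr 1
    · omega
    · refine prod_congr rfl fun y _ => ?_
      omega

theorem V_insert_top {X : Finset ℕ} {a : ℕ} (h : ∀ x ∈ X, x < a) : V (insert a X) = (∏ y ∈ X, (a - y)) * V X := by
  have ha : a ∉ X := fun hx => (h a hx).false
  rw [V, prod_insert ha]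
  congr 1
  · refine prod_congr ?_ fun _ _ => rfl
    ext y
    rw [mem_filter, mem_range, mem_insert]
    constructor
    · rintro ⟨h1, h2 | h2⟩
      · omega
      · exact h2
    · intro hy
      exact ⟨h y hy, Or.inr hy⟩
  · refine prod_congr rfl fun x hx => prod_congr ?_ fun _ _ => rfl
    ext y
    rw [mem_filter, mem_filter, mem_range, mem_insert]
    have := h x hx
    constructor
    · rintro ⟨h1, h2 | h2⟩
      · omega
      · exact ⟨h1, h2⟩
    · rintro ⟨h1, h2⟩
      exact ⟨h1, Or.inr h2⟩

theorem vd_bd : ∀ {l : List ℕ}, Dec l → vd l = V (bd l) := by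
  intro l
  induction l with
  | nil => intro _; rfl
  | cons a l ih =>
    intro h
    have hle : ∀ b ∈ l, b ≤ a := fun _ hb => List.rel_of_pairwise_cons h hb
    rw [bd, V_insert_top (lt_of_mem_bd l a hle), vd, ih h.of_cons, bp_bd h.of_cons hle]

theorem hookProd_eq_hp {l : List ℕ} (h : Dec l) : hookProd l = hp (bd l) := by
  have h1 := hookProd_mul_vd h
  have h2 := hp_mul_V (bd l)
  rw [← fp_bd h, ← h1, vd_bd h] at h2
  exact (Nat.eq_of_mul_eq_mul_right (V_pos _) h2).symm

theorem exists_list (X : Finset ℕ) : ∃ l : List ℕ, Dec l ∧ l.length = X.card ∧ bd l = X := by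
  induction X using Finset.induction_on_max with
  | empty => exact ⟨[], List.Pairwise.nil, rfl, rfl⟩
  | insert a X hX ih =>
    obtain ⟨l, h1, h2, h3⟩ := ih
    have ha : a ∉ X := fun hx => (hX a hx).false
    have hca : X.card ≤ a := by
      have h4 : X ⊆ range a := fun x hx => mem_range.2 (hX x hx)
      simpa using card_le_card h4
    refine ⟨(a - X.card) :: l, ?_, ?_, ?_⟩
    · refine List.Pairwise.cons ?_ h1
      intro b hb
      cases l with
      | nil => simp at hb
      | cons c l =>
        have hc : c + l.length ∈ X := by rw [← h3, bd]; exact mem_insert_self _ _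
        have h5 := hX _ hc
        rw [List.length_cons] at h2
        have h6 : b ≤ c := by
          rcases List.mem_cons.1 hb with rfl | hb
          · exact le_rfl
          · exact List.rel_of_pairwise_cons h1 hb
        show b ≤ a - X.card
        omega
    · rw [List.length_cons, card_insert_of_notMem ha, h2]
    · rw [bd, h3, h2]
      congr 1
      omega

/-- from partitions to bead sets -/
theorem exists_beads {l : List ℕ} {n : ℕ} (hl : IsPart l n) {N : ℕ} (hN : l.length ≤ N) :
    ∃ X : Finset ℕ, X.card = N ∧ ∑ x ∈ X, x = n + ∑ i ∈ range N, i ∧ hp X = hookProd l := by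
  have hd : Dec (l ++ List.replicate (N - l.length) 0) := by
    refine List.pairwise_append.2 ⟨hl.sorted, ?_, ?_⟩
    · exact List.pairwise_replicate.2 (Or.inr le_rfl)
    · intro a _ b hb
      rw [(List.mem_replicate.1 hb).2]
      exact Nat.zero_le _
  have hlen : (l ++ List.replicate (N - l.length) 0).length = N := by
    rw [List.length_append, List.length_replicate]
    omega
  refine ⟨bd (l ++ List.replicate (N - l.length) 0), ?_, ?_, ?_⟩
  · rw [card_bd hd, hlen]
  · rw [sum_bd hd, hlen, List.sum_append, hl.sum, List.sum_replicate, smul_eq_mul, mul_zero, add_zero]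
  · rw [← hookProd_eq_hp hd, ← hookProd_filter hd, List.filter_append]
    have h1 : l.filter (fun a => decide (0 < a)) = l := by
      rw [List.filter_eq_self]
      intro a ha
      simpa using hl.pos a ha
    have h2 : (List.replicate (N - l.length) 0).filter (fun a => decide (0 < a)) = [] := by
      rw [List.filter_eq_nil_iff]
      intro a ha
      rw [(List.mem_replicate.1 ha).2]
      simp
    rw [h1, h2, List.append_nil]

/-- from bead sets to partitions -/
theorem exists_part {X : Finset ℕ} {n : ℕ} (h : ∑ x ∈ X, x = n + ∑ i ∈ range X.card, i) :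
    ∃ l : List ℕ, IsPart l n ∧ hookProd l = hp X := by
  obtain ⟨l, h1, h2, h3⟩ := exists_list X
  refine ⟨l.filter (fun a => decide (0 < a)), ⟨h1.filter _, ?_, ?_⟩, ?_⟩
  · intro a ha
    simpa using (List.mem_filter.1 ha).2
  · rw [sum_filter_pos]
    have h4 := sum_bd h1
    rw [h3, h2] at h4
    omega
  · rw [hookProd_filter h1, hookProd_eq_hp h1, h3]

end Cfsg.Agent.H797.AD
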